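import Cfsg.Agent.Lib.BdL.SL

/-!
# Automorphisms of finite fields of characteristic two
-/

set_option autoImplicit false

namespace Cfsg.Agent.BdL

variable {F : Type*} [Field F]

theorem isCyclic_aut (F : Type*) [Field F] [Finite F] : IsCyclic (RingAut F) := by
  have := ringChar.charP F
  have : Fact (ringChar F).Prime := ⟨CharP.char_is_prime F _⟩
  let := ZMod.algebra F (ringChar F)
  refine isCyclic_of_surjective (MonoidHom.mk'
    (fun σ : F ≃ₐ[ZMod (ringChar F)] F => (σ.toRingEquiv : RingAut F))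
    fun _ _ => rfl) fun σ => ⟨AlgEquiv.ofRingEquiv (f := σ) fun x => ?_, rfl⟩
  exact DFunLike.congr_fun (Subsingleton.elim
    ((σ : F →+* F).comp (algebraMap (ZMod (ringChar F)) F)) (algebraMap (ZMod (ringChar F)) F)) x

theorem finite_aut (F : Type*) [Field F] [Finite F] : Finite (RingAut F) :=
  Finite.of_injective (fun σ : RingAut F => (σ : F → F)) DFunLike.coe_injective

theorem inv_unique [Finite F] {φ χ : F ≃+* F} (h : ∀ a, φ (φ a) = a) (h' : ∀ a, χ (χ a) = a)
    (e : ¬ ∀ a, φ a = a) (e' : ¬ ∀ a, χ a = a) (a : F) : φ a = χ a := by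
  classical
  have := isCyclic_aut F
  have := finite_aut F
  have := Fintype.ofFinite (RingAut F)
  have h1 := IsCyclic.card_pow_eq_one_le (α := RingAut F) (n := 2) two_pos
  by_contra hne
  have h2 : ({1, φ, χ} : Finset (RingAut F)) ⊆ Finset.univ.filter fun a : RingAut F => a ^ 2 = 1 := by
    intro x hx
    simp only [Finset.mem_insert, Finset.mem_singleton] at hx
    rw [Finset.mem_filter]
    refine ⟨Finset.mem_univ _, ?_⟩
    rcases hx with rfl | rfl | rfl
    · exact one_pow _
    · rw [pow_two]; exact RingEquiv.ext h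
    · rw [pow_two]; exact RingEquiv.ext h'
  have h3 := Finset.card_le_card h2
  rw [Finset.card_eq_three.2 ⟨1, φ, χ, fun e1 => e fun a => by rw [← e1]; rfl,
    fun e1 => e' fun a => by rw [← e1]; rfl, fun e1 => hne (by rw [e1]), rfl⟩] at h3
  omega

section Tw

variable (h2 : (2 : F) = 0) {φ : F ≃+* F} {l : F} (h : ∀ a, l * φ (l * φ a) = a)
  (e : ¬ ∀ a, φ a = a)

include h in
theorem tw_norm : l * φ l = 1 := by simpa using h 1

include h in
theorem tw_inv (a : F) : φ (φ a) = a := by
  have := h a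
  rwa [map_mul, ← mul_assoc, tw_norm h, one_mul] at this

include h2 h e

theorem tw_90 {μ : F} (hμ : l * φ μ = μ) : ∃ ν, l * φ ν + ν = μ := by
  obtain ⟨c, hc⟩ := not_forall.1 e
  have hτ : φ c + c ≠ 0 := fun e1 => hc (by linear_combination e1 - c * h2)
  refine ⟨μ * c / (φ c + c), ?_⟩
  rw [map_div₀, map_mul, map_add, tw_inv h, add_comm c]
  field_simp
  linear_combination φ c * hμ

theorem tw_ex : ∃ s, s ≠ 0 ∧ l * φ s = s := by
  obtain ⟨c, hc⟩ := not_forall.1 e
  have key : ∀ x, l * φ (l * φ x + x) = l * φ x + x := fun x => by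
    rw [map_add, mul_add, h, add_comm]
  by_cases h1 : l * φ 1 + 1 = 0
  · refine ⟨_, fun e1 => hc ?_, key c⟩
    rw [map_one] at h1
    linear_combination e1 - φ c * h1 + (φ c - c) * h2
  · exact ⟨_, h1, key 1⟩

theorem tw_card : Nat.card {a : F // l * φ a = a} ^ 2 = Nat.card F := by
  obtain ⟨c, hc⟩ := not_forall.1 e
  have hτ : φ c + c ≠ 0 := fun e1 => hc (by linear_combination e1 - c * h2)
  rw [pow_two, ← Nat.card_prod]
  refine Nat.card_congr (Equiv.ofBijective (fun p => p.1.1 + p.2.1 * c) ⟨?_, fun x => ?_⟩)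
  · rintro ⟨⟨a, ha⟩, ⟨b, hb⟩⟩ ⟨⟨a', ha'⟩, ⟨b', hb'⟩⟩ e1
    simp only at e1
    have e2 := congrArg (fun x => l * φ x) e1
    simp only [map_add, map_mul] at e2
    have : b = b' := by
      apply mul_left_cancel₀ hτ
      linear_combination e1 + e2 - ha + ha' - φ c * hb + φ c * hb' - (a - a') * h2
    subst this
    have : a = a' := add_right_cancel e1
    subst this
    rfl
  · have h3 : l * φ ((l * φ x + x) / (φ c + c)) = (l * φ x + x) / (φ c + c) := by
      rw [map_div₀, map_add, map_add, tw_inv h c, add_comm c, ← mul_div_assoc, mul_add, h,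
        add_comm]
    refine ⟨(⟨x + (l * φ x + x) / (φ c + c) * c, ?_⟩, ⟨_, h3⟩), ?_⟩
    · rw [map_add, map_mul, mul_add, ← mul_assoc, h3]
      field_simp
      linear_combination (l * φ x * φ c - x * c) * h2
    · simp only
      rw [add_assoc, add_self h2, add_zero]

end Tw

theorem lin_field [Finite F] {m : ℕ} (hF : Nat.card F = 2 ^ m) (W : AddSubgroup F)
    (h1 : (1 : F) ∈ W) (hW : W ≠ ⊤)
    (h : ∀ z ∉ W, ∀ z' ∉ W, ∃ φ : F ≃+* F, (∀ w ∈ W, φ w = w) ∧ φ z + z' ∈ W) :
    Nat.card F = 2 * Nat.card W ∨ (Nat.card F = 8 ∧ Nat.card W = 2) := by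
  classical
  have := finite_aut F
  let Γ : Subgroup (RingAut F) :=
    { carrier := {φ | ∀ w ∈ W, φ w = w}
      mul_mem' := fun {a b} ha hb w hw => by
        change a (b w) = w
        rw [hb w hw, ha w hw]
      one_mem' := fun _ _ => rfl
      inv_mem' := fun {a} ha w hw => by
        change a.symm w = w
        rw [RingEquiv.symm_apply_eq, ha w hw] }
  have := Fintype.ofFinite Γ
  have hr := FixedPoints.finrank_eq_card Γ F
  have hq := Module.natCard_eq_pow_finrank (K := FixedPoints.subfield Γ F) (V := F)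
  rw [hr, ← Nat.card_eq_fintype_card] at hq
  have hle : Nat.card W ≤ Nat.card (FixedPoints.subfield Γ F) :=
    Nat.card_le_card_of_injective (fun w => ⟨w.1, fun φ => φ.2 w.1 w.2⟩) fun a b e =>
      Subtype.ext (congrArg (fun x : FixedPoints.subfield Γ F => x.1) e)
  have h2 : 2 ≤ Nat.card W := by
    have : Nontrivial W := ⟨⟨1, h1⟩, 0, fun e => one_ne_zero (congrArg Subtype.val e)⟩
    exact Finite.one_lt_card
  obtain ⟨z, hz⟩ : ∃ z, z ∉ W := by
    by_contra hne
    exact hW (eq_top_iff.2 fun z _ => by_contra fun e => hne ⟨z, e⟩)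
  have hb : Nat.card F ≤ (Nat.card Γ + 1) * Nat.card W := by
    rw [← Finite.card_option, ← Nat.card_prod]
    refine Nat.card_le_card_of_surjective
      (fun p : Option Γ × W => p.1.elim p.2.1 fun φ => p.2.1 - φ.1 z) fun x => ?_
    by_cases hx : x ∈ W
    · exact ⟨(none, ⟨x, hx⟩), rfl⟩
    · obtain ⟨φ, e1, e2⟩ := h z hz x hx
      exact ⟨(some ⟨φ, e1⟩, ⟨_, e2⟩), by simp⟩
  have hi := W.card_mul_index
  have hi1 : W.index ≠ 1 := fun e => hW (AddSubgroup.index_eq_one.1 e)
  have hi0 : W.index ≠ 0 := AddSubgroup.index_ne_zero_of_finite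
  have hΓ : 0 < Nat.card Γ := Nat.card_pos
  generalize Nat.card Γ = r at *
  generalize Nat.card (FixedPoints.subfield Γ F) = k at *
  generalize Nat.card W = w at *
  generalize W.index = i at *
  generalize Nat.card F = q at *
  obtain ⟨r, rfl⟩ : ∃ r', r = r' + 1 := ⟨r - 1, by omega⟩
  have hk : k ^ r ≤ r + 2 := by
    apply Nat.le_of_mul_le_mul_right _ (show 0 < k by omega)
    rw [← pow_succ, ← hq]
    exact hb.trans (Nat.mul_le_mul_left _ hle)
  have hr3 : r ≤ 2 := by
    by_contra hne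
    have h3 : 2 ^ r ≤ k ^ r := Nat.pow_le_pow_left (by omega) r
    obtain ⟨s, rfl⟩ : ∃ s, r = s + 3 := ⟨r - 3, by omega⟩
    have := Nat.lt_two_pow_self (n := s)
    rw [pow_add] at h3
    omega
  interval_cases r
  · left
    have : i = 2 := by
      have : w * i ≤ w * 2 := by rw [hi]; linarith
      have := Nat.le_of_mul_le_mul_left this (by omega)
      omega
    rw [← hi, this, mul_comm]
  · left
    have hk3 : k ≠ 3 := by
      rintro rfl
      have : 3 ∣ 2 ^ m := by rw [← hF, hq]; norm_num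
      have := Nat.Prime.dvd_of_dvd_pow Nat.prime_three this
      omega
    have : k = 2 := by rw [pow_one] at hk; omega
    subst this
    omega
  · right
    have : k = 2 := by
      by_contra hne
      have : 3 ^ 2 ≤ k ^ 2 := Nat.pow_le_pow_left (by omega) 2
      omega
    subst this
    omega

end Cfsg.Agent.BdL
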