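import Cfsg.Agent.Lib.BdL.Fld
import Cfsg.Agent.Lib.Bd.Loc

/-!
# The local properties `Bd.Loc` of a subgroup isomorphic to `L₂(2 ^ m)`
-/

set_option autoImplicit false
set_option backward.isDefEq.respectTransparency false

namespace Cfsg.Agent.BdL

open Matrix Cfsg.Agent.SL2 Cfsg.Agent.AIC Cfsg.Agent.Bd
open scoped MatrixGroups

variable {G : Type*} [Group G] {F : Type*} [Field F]

/-- `f` embeds `SL₂(F)` onto `M`. -/
structure Emb (M : Subgroup G) (f : SL(2, F) →* G) : Prop where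
  two : (2 : F) = 0
  inj : Function.Injective f
  mem : ∀ g, g ∈ M ↔ ∃ x, f x = g

/-- `g` acts on the image of `f` in standard form. -/
def Act (f : SL(2, F) →* G) (g : G) (μ : F) (l : Fˣ) (φ : F ≃+* F) : Prop :=
  ∀ x, g * f x * g⁻¹ = f (up μ * dg l * mp φ x * (up μ * dg l)⁻¹)

theorem Act.up {f : SL(2, F) →* G} {g : G} {μ : F} {l : Fˣ} {φ : F ≃+* F} (h : Act f g μ l φ)
    (a : F) : g * f (up a) * g⁻¹ = f (up ((l : F) ^ 2 * φ a)) := by
  rw [h, mp_up, ← conj_eq_of_commute (up_comm μ ((l : F) ^ 2 * φ a)), ← dg_mul_up]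
  congr 1; group

theorem Act.lo {f : SL(2, F) →* G} {g : G} {μ : F} {l : Fˣ} {φ : F ≃+* F} (h : Act f g μ l φ)
    (a : F) : g * f (lo a) * g⁻¹ = f (SL2.up μ * lo (((l : F) ^ 2)⁻¹ * φ a) * (SL2.up μ)⁻¹) := by
  rw [h, mp_lo, ← dg_mul_lo]
  congr 1; group

theorem Act.ulu {f : SL(2, F) →* G} {g : G} {μ : F} {l : Fˣ} {φ : F ≃+* F} (h : Act f g μ l φ)
    (ν a : F) : g * f (SL2.up ν * SL2.lo a * (SL2.up ν)⁻¹) * g⁻¹ =
      f (SL2.up ((l : F) ^ 2 * φ ν + μ) * SL2.lo (((l : F) ^ 2)⁻¹ * φ a) *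
        (SL2.up ((l : F) ^ 2 * φ ν + μ))⁻¹) := by
  calc _ = g * f (SL2.up ν) * g⁻¹ * (g * f (SL2.lo a) * g⁻¹) * (g * f (SL2.up ν) * g⁻¹)⁻¹ := by
        rw [map_mul, map_mul, map_inv]; group
    _ = _ := by
        rw [h.up, h.lo, ← map_inv, ← map_mul, ← map_mul, ← up_mul]
        congr 1; group

namespace Emb

variable {M : Subgroup G} {f : SL(2, F) →* G} (h : Emb M f)
include h

theorem fmem (x : SL(2, F)) : f x ∈ M := (h.mem _).2 ⟨x, rfl⟩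

theorem comm_iff {x y : SL(2, F)} : Commute (f x) (f y) ↔ Commute x y :=
  ⟨fun e => e.of_map h.inj, fun e => e.map f⟩

theorem eq_one {x : SL(2, F)} : f x = 1 ↔ x = 1 := by rw [← map_one f, h.inj.eq_iff]

theorem of_I {t : G} (ht : t ∈ I M) : ∃ x, f x = t ∧ x ≠ 1 ∧ x * x = 1 := by
  obtain ⟨x, rfl⟩ := (h.mem _).1 ht.1
  exact ⟨x, rfl, mt h.eq_one.2 ht.2.1, h.eq_one.1 (by rw [map_mul, ht.2.2])⟩

theorem conj (y : SL(2, F)) : Emb M (f.comp (MulAut.conj y).toMonoidHom) :=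
  ⟨h.two, h.inj.comp (MulAut.conj y).injective, fun g => by
    rw [h.mem]
    constructor
    · rintro ⟨x, rfl⟩
      exact ⟨(MulAut.conj y).symm x, congrArg f ((MulAut.conj y).apply_symm_apply x)⟩
    · rintro ⟨x, rfl⟩
      exact ⟨_, rfl⟩⟩

theorem exists_emb [Finite F] {t : G} (ht : t ∈ I M) :
    ∃ f' : SL(2, F) →* G, Emb M f' ∧ f' (up 1) = t := by
  obtain ⟨x, rfl, h1, h2⟩ := h.of_I ht
  obtain ⟨y, rfl⟩ := exists_conj h.two h2 h1
  exact ⟨_, h.conj y, rfl⟩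

theorem of_comm {g : G} (hg : g ∈ M) (e : Commute g (f (up 1))) : ∃ a, g = f (up a) := by
  obtain ⟨x, rfl⟩ := (h.mem _).1 hg
  obtain ⟨a, rfl⟩ := comm_up h.two one_ne_zero (h.comm_iff.1 e)
  exact ⟨a, rfl⟩

theorem fup_sq (a : F) : f (up a) * f (up a) = 1 := by rw [← map_mul, up_up h.two, map_one]

theorem fup_four (a : F) : f (up a) ^ 4 = 1 := by
  rw [show 4 = 2 * 2 from rfl, pow_mul, pow_two (f _), h.fup_sq, one_pow]

theorem ZZ_eq : ZZ M (f (up 1)) = (f.comp upHom).range := by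
  apply le_antisymm
  · refine (Subgroup.closure_le _).2 fun z hz => ?_
    obtain ⟨a, rfl⟩ := h.of_comm hz.1 hz.2.2
    exact ⟨Multiplicative.ofAdd a, rfl⟩
  · rintro _ ⟨a, rfl⟩
    exact Subgroup.subset_closure ⟨h.fmem _, h.fup_sq _, (up_comm _ _).map f⟩

theorem SS_eq : SS M (f (up 1)) = (f.comp upHom).range := by
  apply le_antisymm
  · refine (Subgroup.closure_le _).2 fun z hz => ?_
    obtain ⟨a, rfl⟩ := h.of_comm hz.1 hz.2.2
    exact ⟨Multiplicative.ofAdd a, rfl⟩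
  · rintro _ ⟨a, rfl⟩
    exact Subgroup.subset_closure ⟨h.fmem _, h.fup_four _, (up_comm _ _).map f⟩

theorem memZ {z : G} : z ∈ ZZ M (f (up 1)) ↔ ∃ a, z = f (up a) := by
  rw [h.ZZ_eq]
  exact ⟨fun ⟨a, e⟩ => ⟨a.toAdd, e.symm⟩, fun ⟨a, e⟩ => ⟨Multiplicative.ofAdd a, e.symm⟩⟩

theorem memS {z : G} : z ∈ SS M (f (up 1)) ↔ ∃ a, z = f (up a) := by
  rw [h.SS_eq, ← h.ZZ_eq, h.memZ]

theorem upZ (a : F) : f (up a) ∈ ZZ M (f (up 1)) := h.memZ.2 ⟨a, rfl⟩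

theorem upS (a : F) : f (up a) ∈ SS M (f (up 1)) := h.memS.2 ⟨a, rfl⟩

theorem fup_inj {a b : F} (e : f (up a) = f (up b)) : a = b := up_injective (h.inj e)

theorem cardZ : Nat.card (ZZ M (f (up 1))) = Nat.card F := by
  symm
  refine Nat.card_congr (Equiv.ofBijective (fun a => ⟨_, h.upZ a⟩) ⟨fun a b e =>
    h.fup_inj (congrArg Subtype.val e), fun z => ?_⟩)
  obtain ⟨a, e⟩ := h.memZ.1 z.2
  exact ⟨a, Subtype.ext e.symm⟩

theorem act [Finite F] {g : G} (hg : Nm M g) (e : Commute (g * f (up 1) * g⁻¹) (f (up 1))) :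
    ∃ μ l φ, Act f g μ l φ := by
  have e1 : ∀ x, ∃ y, f y = g * f x * g⁻¹ := fun x => (h.mem _).1 (hg _ (h.fmem x))
  choose ψ hψ using e1
  obtain ⟨μ, l, φ, e2⟩ := aut_struct h.two (MonoidHom.mk' ψ fun a b => h.inj (by
      rw [map_mul, hψ, hψ, hψ, map_mul]; group))
    (fun a b e => h.inj (by
      have := congrArg f e
      simp only [MonoidHom.mk'_apply, hψ] at this
      simpa using this)) (h.comm_iff.1 (by rw [MonoidHom.mk'_apply, hψ]; exact e))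
  exact ⟨μ, l, φ, fun x => by rw [← hψ, ← e2]; rfl⟩

theorem act' [Finite F] {g : G} (hg : Nm M g) (e : Commute g (f (up 1))) :
    ∃ μ φ, Act f g μ 1 φ := by
  obtain ⟨μ, l, φ, e1⟩ := h.act hg (by rw [conj_eq_of_commute e])
  have := e1.up 1
  rw [conj_eq_of_commute e, map_one, mul_one, pow_two] at this
  have h3 : l = 1 := Units.ext (eq_one_of_sq h.two (h.fup_inj this).symm)
  exact ⟨μ, φ, h3 ▸ e1⟩

variable {g : G} {μ : F} {l : Fˣ} {φ : F ≃+* F}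

theorem comm_up_iff (e : Act f g μ l φ) (a : F) :
    Commute g (f (up a)) ↔ (l : F) ^ 2 * φ a = a :=
  ⟨fun e1 => h.fup_inj (by rw [← e.up, conj_eq_of_commute e1]),
    fun e1 => commute_of_conj_eq (by rw [e.up, e1])⟩

theorem sq_up (e : Act f g μ l φ) {a : F} (e1 : Commute (g * g) (f (up a))) :
    (l : F) ^ 2 * φ ((l : F) ^ 2 * φ a) = a :=
  h.fup_inj (by
    rw [← e.up, ← e.up]
    calc _ = g * g * f (up a) * (g * g)⁻¹ := by group
      _ = _ := conj_eq_of_commute e1)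

theorem as_of (e : Act f g μ 1 φ) (e1 : ∀ a, φ a = a) : As M g (f (up μ)) := fun m hm => by
  obtain ⟨x, rfl⟩ := (h.mem _).1 hm
  rw [e, mp_of_fix e1, dg_one, mul_one, map_mul, map_mul, map_inv]

theorem inn_of (e : Act f g μ l φ) (e1 : ∀ a, φ a = a) (e2 : Ce M (g * g)) :
    Inn M (f (up 1)) g := by
  have h1 := h.sq_up e (e2 _ (h.fmem (up 1)))
  rw [e1, e1, mul_one] at h1
  have h3 := eq_one_of_sq h.two h1
  rw [pow_two] at h3
  obtain rfl : l = 1 := Units.ext (eq_one_of_sq h.two h3)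
  exact ⟨_, h.upZ μ, h.as_of e e1⟩

theorem phi_of [Finite F] (e : Act f g μ l φ) (e1 : ¬ ∀ a, φ a = a) (e2 : Ce M (g * g)) :
    Phi M (Nat.card F) (Nat.card F) (f (up 1)) g := by
  have h1 : ∀ a, (l : F) ^ 2 * φ ((l : F) ^ 2 * φ a) = a := fun a =>
    h.sq_up e (e2 _ (h.fmem (up a)))
  refine ⟨?_, Or.inr ⟨rfl, ?_⟩⟩
  · have h3 : (l : F) ^ 2 * φ μ = μ := by
      have h4 : g * (g * f (lo 1) * g⁻¹) * g⁻¹ = f (lo 1) := by
        calc _ = g * g * f (lo 1) * (g * g)⁻¹ := by group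
          _ = _ := conj_eq_of_commute (e2 _ (h.fmem (lo 1)))
      rw [e.lo, e.ulu] at h4
      have := ulu_comm h.two (c := ((l : F) ^ 2)⁻¹ * φ (((l : F) ^ 2)⁻¹ * φ 1)) (by simp)
        one_ne_zero (by rw [h.inj h4])
      linear_combination this - μ * h.two
    obtain ⟨ν, hν⟩ := tw_90 h.two h1 e1 h3
    obtain ⟨s, hs, hs'⟩ := tw_ex h.two h1 e1
    refine ⟨f (up ν * lo s⁻¹ * (up ν)⁻¹), h.fmem _, (commute_of_conj_eq ?_).symm, fun e3 => ?_⟩
    · rw [e.ulu, map_inv₀, ← mul_inv, hs', ← hν, ← add_assoc, add_self h.two, zero_add]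
    · rw [← map_inv, ← map_mul, ← map_mul, h.comm_iff, ← commute_conj_iff (up ν)⁻¹,
        conj_eq_of_commute (up_comm ν 1).inv_left] at e3
      refine inv_ne_zero hs (lul_comm h.two ?_)
      have e4 : (up ν)⁻¹ * (up ν * lo s⁻¹ * (up ν)⁻¹ * up 1 * (up ν * lo s⁻¹ * (up ν)⁻¹)⁻¹) *
          (up ν)⁻¹⁻¹ = lo s⁻¹ * ((up ν)⁻¹ * up 1 * (up ν)⁻¹⁻¹) * (lo s⁻¹)⁻¹ := by group
      rwa [e4, conj_eq_of_commute (up_comm ν 1).inv_left] at e3
  · rw [← tw_card h.two h1 e1]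
    congr 1
    symm
    refine Nat.card_congr (Equiv.ofBijective (fun a => ⟨f (up a.1), h.upZ _,
      Subgroup.mem_centralizer_singleton_iff.2 ((h.comm_up_iff e a.1).2 a.2).symm⟩)
      ⟨fun a b e => Subtype.ext (h.fup_inj (congrArg Subtype.val e)), fun z => ?_⟩)
    obtain ⟨a, e3⟩ := h.memZ.1 z.2.1
    have := Subgroup.mem_centralizer_singleton_iff.1 z.2.2
    rw [e3] at this
    exact ⟨⟨a, (h.comm_up_iff e a).1 this.symm⟩, Subtype.ext e3.symm⟩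

theorem lin [Finite F] {m : ℕ} (hF : Nat.card F = 2 ^ m) {V : Subgroup G}
    (h1 : V ≤ ZZ M (f (up 1))) (h2 : f (up 1) ∈ V) (h3 : V ≠ ZZ M (f (up 1)))
    (h4 : ∀ z ∈ ZZ M (f (up 1)), z ∉ V → ∀ z' ∈ ZZ M (f (up 1)), z' ∉ V →
      ∃ g, Nm M g ∧ Ce V g ∧ g * z * g⁻¹ * z' ∈ V) :
    Nat.card F = 2 * Nat.card V ∨ (Nat.card F = 8 ∧ Nat.card V = 2) := by
  let W : AddSubgroup F := (V.comap (f.comp upHom)).toAddSubgroup'
  have hW : ∀ a, a ∈ W ↔ f (up a) ∈ V := fun a => Iff.rfl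
  have hc : Nat.card W = Nat.card V :=
    Nat.card_congr (Equiv.ofBijective (fun a => ⟨f (up a.1), a.2⟩)
      ⟨fun a b e => Subtype.ext (h.fup_inj (congrArg Subtype.val e)), fun z => by
        obtain ⟨a, e⟩ := h.memZ.1 (h1 z.2)
        exact ⟨⟨a, (hW a).2 (e ▸ z.2)⟩, Subtype.ext e.symm⟩⟩)
  rw [← hc]
  refine lin_field hF W h2 (fun e => h3 (le_antisymm h1 fun z hz => ?_)) fun z hz z' hz' => ?_
  · obtain ⟨a, rfl⟩ := h.memZ.1 hz
    exact (hW a).1 (e ▸ AddSubgroup.mem_top a)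
  · obtain ⟨g, e1, e2, e3⟩ := h4 _ (h.upZ z) hz _ (h.upZ z') hz'
    obtain ⟨μ, φ, e⟩ := h.act' e1 (e2 _ h2)
    refine ⟨φ, fun w hw => by simpa using (h.comm_up_iff e w).1 (e2 _ hw), ?_⟩
    rw [e.up, ← map_mul, up_mul] at e3
    simpa using (hW _).2 e3

theorem pair [Finite F] {a b : G} (ha : Nm M a) (hb : Nm M b) (ha2 : Ce M (a * a))
    (hb2 : Ce M (b * b)) (e1 : Commute (a * f (up 1) * a⁻¹) (f (up 1)))
    (e2 : Commute (b * f (up 1) * b⁻¹) (f (up 1))) (hab : Commute a b)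
    (na : ¬ Inn M (f (up 1)) a) (nb : ¬ Inn M (f (up 1)) b) : Inn M (f (up 1)) (a * b) := by
  obtain ⟨μ, l, φ, ea⟩ := h.act ha e1
  obtain ⟨μ', l', φ', eb⟩ := h.act hb e2
  have h1 : ∀ x, φ (φ x) = x := tw_inv fun x => h.sq_up ea (ha2 _ (h.fmem (up x)))
  have h2 : ∀ x, φ' (φ' x) = x := tw_inv fun x => h.sq_up eb (hb2 _ (h.fmem (up x)))
  have h3 := inv_unique h1 h2 (fun e => na (h.inn_of ea e ha2)) fun e => nb (h.inn_of eb e hb2)
  have h4 : ∀ x, a * b * f (up x) * (a * b)⁻¹ = f (up ((l : F) ^ 2 * φ ((l' : F) ^ 2) * x)) :=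
    fun x => by
      calc _ = a * (b * f (up x) * b⁻¹) * a⁻¹ := by group
        _ = _ := by rw [eb.up, ea.up, map_mul, ← h3, h1, mul_assoc]
  obtain ⟨ν, k, χ, e⟩ := h.act (ha.mul hb) (by rw [h4]; exact (up_comm _ _).map f)
  have h5 : ∀ x, (k : F) ^ 2 * χ x = (l : F) ^ 2 * φ ((l' : F) ^ 2) * x := fun x =>
    h.fup_inj (by rw [← e.up, h4])
  refine h.inn_of e (fun x => ?_) ?_
  · have := h5 1
    rw [map_one, mul_one, mul_one] at this
    exact mul_left_cancel₀ (pow_ne_zero 2 k.ne_zero) (by rw [h5, this])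
  · rw [hab.symm.mul_mul_mul_comm]
    exact ha2.mul hb2

theorem same [Finite F] {a b : G} (ha : Nm M a) (hb : Nm M b) (e1 : Commute a (f (up 1)))
    (e2 : Commute b (f (up 1))) (ha2 : Ce (ZZ M (f (up 1))) (a * a))
    (hb2 : Ce (ZZ M (f (up 1))) (b * b)) (na : ¬ Ce (ZZ M (f (up 1))) a)
    (nb : ¬ Ce (ZZ M (f (up 1))) b) : As (ZZ M (f (up 1))) a b := by
  obtain ⟨μ, φ, ea⟩ := h.act' ha e1
  obtain ⟨μ', φ', eb⟩ := h.act' hb e2
  have h1 : ∀ x, φ (φ x) = x := tw_inv fun x => h.sq_up ea (ha2 _ (h.upZ x))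
  have h2 : ∀ x, φ' (φ' x) = x := tw_inv fun x => h.sq_up eb (hb2 _ (h.upZ x))
  have h3 := inv_unique h1 h2 (fun e => na fun z hz => by
    obtain ⟨x, rfl⟩ := h.memZ.1 hz
    exact (h.comm_up_iff ea x).2 (by simp [e])) fun e => nb fun z hz => by
    obtain ⟨x, rfl⟩ := h.memZ.1 hz
    exact (h.comm_up_iff eb x).2 (by simp [e])
  intro z hz
  obtain ⟨x, rfl⟩ := h.memZ.1 hz
  rw [ea.up, eb.up, h3]

theorem rex {u v : G} (hu : u ∈ I M) (hv : v ∈ I M) (e1 : ¬ Commute (f (up 1)) u)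
    (e2 : ¬ Commute (f (up 1)) v) : ∃ s ∈ SS M (f (up 1)), Commute (s * u * s⁻¹) v := by
  obtain ⟨x, rfl, -, hx⟩ := h.of_I hu
  obtain ⟨y, rfl, -, hy⟩ := h.of_I hv
  obtain ⟨μ, c, -, rfl⟩ := nc_form h.two hx (mt h.comm_iff.2 e1)
  obtain ⟨ν, d, -, rfl⟩ := nc_form h.two hy (mt h.comm_iff.2 e2)
  refine ⟨_, h.upS (ν - μ), ?_⟩
  rw [← map_inv, ← map_mul, ← map_mul, h.comm_iff]
  have e3 : up (ν - μ) * (up μ * lo c * (up μ)⁻¹) * (up (ν - μ))⁻¹ =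
      up (ν - μ) * up μ * lo c * (up (ν - μ) * up μ)⁻¹ := by group
  rw [e3, up_mul, sub_add_cancel]
  exact (commute_conj_iff (up ν) _ _).2 (lo_comm c d)

theorem runiq {u s : G} (hu : u ∈ I M) (e1 : ¬ Commute (f (up 1)) u) (hs : s ∈ SS M (f (up 1)))
    (e2 : Commute (s * u * s⁻¹) u) : s = 1 := by
  obtain ⟨x, rfl, -, hx⟩ := h.of_I hu
  obtain ⟨μ, c, hc, rfl⟩ := nc_form h.two hx (mt h.comm_iff.2 e1)
  obtain ⟨σ, rfl⟩ := h.memS.1 hs
  rw [← map_inv, ← map_mul, ← map_mul, h.comm_iff] at e2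
  have e3 : up σ * (up μ * lo c * (up μ)⁻¹) * (up σ)⁻¹ =
      up μ * (up σ * lo c * (up σ)⁻¹) * (up μ)⁻¹ := by
    calc _ = up σ * up μ * lo c * (up σ * up μ)⁻¹ := by group
      _ = _ := by rw [(up_comm σ μ).eq]; group
  rw [e3, commute_conj_iff] at e2
  rw [ulu_comm h.two hc hc e2, up_zero, map_one]

theorem loc [Finite F] {m : ℕ} (hF : Nat.card F = 2 ^ m) (hm : 2 ≤ m) :
    Loc M (2 ^ m) (2 ^ m) := by
  have h4 : 4 ≤ 2 ^ m := Nat.pow_le_pow_right (by norm_num : 0 < 2) hm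
  have n3 : 2 ^ m ≠ (2 ^ m) ^ 3 := by
    generalize 2 ^ m = q at h4
    intro e
    nlinarith [Nat.pow_le_pow_left h4 2]
  have sq : ∀ {t s}, t ∈ I M → s ∈ SS M t → s * s = 1 := fun ht hs => by
    obtain ⟨f, h, rfl⟩ := h.exists_emb ht
    obtain ⟨a, rfl⟩ := h.memS.1 hs
    exact h.fup_sq a
  refine
    { pow := ⟨m, hm, rfl⟩
      kind := Or.inl rfl
      memZ := fun ht => ?_
      memS := fun ht => ?_
      comm := fun ht hz hs => ?_
      cardZ := fun ht => ?_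
      cardS := fun ht => ?_
      two := fun ht hg e _ => ?_
      rex := fun ht => ?_
      runiq := fun ht => ?_
      nc := ⟨f (up 1), ⟨h.fmem _, fun e => one_ne_zero (up_eq_one.1 (h.eq_one.1 e)), h.fup_sq 1⟩,
        f (lo 1), ⟨h.fmem _, fun e => one_ne_zero (lo_eq_one.1 (h.eq_one.1 e)),
          by rw [← map_mul, lo_lo h.two, map_one]⟩,
        fun e => not_comm_up_lo one_ne_zero one_ne_zero (h.comm_iff.1 e)⟩
      cS := fun ht hg e => ?_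
      lin := fun ht => ?_
      tri := fun ht hg e1 e2 => ?_
      pair := fun ht => ?_
      inn := fun ht hg e _ => ?_
      four := fun e => absurd rfl e
      same := fun ht => ?_
      su1 := fun _ e => absurd e n3
      su2 := fun _ e => absurd rfl e
      sq := fun _ e => absurd rfl e
      sqinj := fun ht _ hs hr _ => ?_
      cj := fun ht hs e => absurd (sq ht hs) e
      c4 := fun ht hs e => absurd (sq ht hs) e
      gen := fun ht _ _ _ _ hs _ e => absurd (sq ht hs) e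
      sig := fun _ e => absurd e n3
      cC1 := fun ht _ hg e => ?_
      cC4 := fun _ e1 e2 => by omega
      cC8 := fun _ e1 e2 => by omega }
  all_goals obtain ⟨f, h, rfl⟩ := h.exists_emb ht
  · rw [h.memZ]
    exact ⟨fun ⟨a, e⟩ => e ▸ ⟨h.fmem _, h.fup_sq a, (up_comm _ _).map f⟩,
      fun e => h.of_comm e.1 e.2.2⟩
  · rw [h.memS]
    exact ⟨fun ⟨a, e⟩ => e ▸ ⟨h.fmem _, h.fup_four a, (up_comm _ _).map f⟩,
      fun e => h.of_comm e.1 e.2.2⟩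
  · obtain ⟨a, rfl⟩ := h.memZ.1 hz
    obtain ⟨b, rfl⟩ := h.memS.1 hs
    exact (up_comm _ _).map f
  · rw [h.cardZ, hF]
  · rw [h.SS_eq, ← h.ZZ_eq, h.cardZ, hF]
  · exact h.memS.2 (h.of_comm hg e)
  · exact h.rex
  · exact h.runiq
  · exact h.memZ.2 (h.of_comm hg (e _ (h.upS 1)))
  · rw [← hF]; exact h.lin hF
  · obtain ⟨μ, l, φ, e⟩ := h.act hg e2
    by_cases e3 : ∀ a, φ a = a
    · exact Or.inl (h.inn_of e e3 e1)
    · exact Or.inr (hF ▸ h.phi_of e e3 e1)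
  · exact h.pair
  · obtain ⟨μ, φ, e1⟩ := h.act' hg (e _ (h.upZ 1))
    exact ⟨_, h.upS μ, h.as_of e1 fun a => by simpa using (h.comm_up_iff e1 a).1 (e _ (h.upZ a))⟩
  · exact h.same
  · rw [h.ZZ_eq, ← h.SS_eq]
    exact mul_mem hs (inv_mem hr)
  · exact h.memZ.2 (h.of_comm hg e)

end Emb

theorem loc_L2 {G : Type*} [Group G] [Finite G] (M : Subgroup G) {F : Type} [Field F] [Fintype F]
    {m : Nat} (hF : Fintype.card F = 2 ^ m) (hm : 2 ≤ m)
    (e : M ≃* Matrix.ProjectiveSpecialLinearGroup (Fin 2) F) : Bd.Loc M (2 ^ m) (2 ^ m) := by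
  rw [← Nat.card_eq_fintype_card] at hF
  have h2 : (2 : F) = 0 := even_card_iff.1 (by
    rw [hF, Nat.even_pow]; exact ⟨even_two, by omega⟩)
  refine Emb.loc (f := M.subtype.comp ((prEquiv h2).trans e.symm).toMonoidHom)
    ⟨h2, M.subtype_injective.comp ((prEquiv h2).trans e.symm).injective, fun g => ⟨fun hg => ?_, ?_⟩⟩
    hF hm
  · obtain ⟨x, hx⟩ := ((prEquiv h2).trans e.symm).surjective ⟨g, hg⟩
    exact ⟨x, congrArg Subtype.val hx⟩
  · rintro ⟨x, rfl⟩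
    exact Subtype.prop _

end Cfsg.Agent.BdL
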