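import Cfsg.Agent.Lib.SL2.Bruhat
import Cfsg.Agent.Lib.AIC.Basic

/-!
# Involutions and endomorphisms of `SL₂` in characteristic two
-/

set_option autoImplicit false
set_option backward.isDefEq.respectTransparency false

namespace Cfsg.Agent.BdL

open Matrix Cfsg.Agent.SL2 Cfsg.Agent.AIC
open scoped MatrixGroups

variable {F : Type*} [Field F]

theorem eq_one_of_sq (h2 : (2 : F) = 0) {a : F} (h : a * a = 1) : a = 1 := by
  have : (a - 1) ^ 2 = 0 := by linear_combination h - (a - 1) * h2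
  exact sub_eq_zero.1 (pow_eq_zero_iff two_ne_zero |>.1 this)

theorem neg_eq (h2 : (2 : F) = 0) (a : F) : -a = a := by linear_combination -a * h2

theorem add_self (h2 : (2 : F) = 0) (a : F) : a + a = 0 := by linear_combination a * h2

theorem up_up (h2 : (2 : F) = 0) (a : F) : up a * up a = 1 := by
  rw [up_mul, add_self h2, up_zero]

theorem lo_lo (h2 : (2 : F) = 0) (a : F) : lo a * lo a = 1 := by
  rw [lo_mul, add_self h2, lo_zero]

theorem up_eq_one {a : F} : up a = 1 ↔ a = 0 := by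
  rw [← up_zero, up_injective.eq_iff]

theorem lo_injective : Function.Injective (lo : F → SL(2, F)) := fun a b h => by
  simpa using (mat_ext_iff.1 (SL_coe_congr h)).2.2.1

theorem lo_eq_one {a : F} : lo a = 1 ↔ a = 0 := by
  rw [← lo_zero, lo_injective.eq_iff]

theorem up_comm (a b : F) : Commute (up a) (up b) := by
  rw [Commute, SemiconjBy, up_mul, up_mul, add_comm]

theorem lo_comm (a b : F) : Commute (lo a) (lo b) := by
  rw [Commute, SemiconjBy, lo_mul, lo_mul, add_comm]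

theorem comm_up (h2 : (2 : F) = 0) {a : F} (ha : a ≠ 0) {x : SL(2, F)} (h : Commute x (up a)) :
    ∃ b, x = up b := by
  have hd := SL_det x
  obtain ⟨h1, h3, -, -⟩ := mat_ext_iff.1 (SL_coe_congr h.eq)
  simp [SL_coe_mul, mul_apply2, ha] at h1 h3
  have h4 : x.1 0 0 = x.1 1 1 := mul_left_cancel₀ ha (by linear_combination h3)
  have h5 : x.1 1 1 = 1 := eq_one_of_sq h2 (by rw [h1, h4] at hd; linear_combination hd)
  exact ⟨x.1 0 1, SL_ext (by apply mat_ext <;> simp [h1, h4, h5])⟩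

theorem comm_lo (h2 : (2 : F) = 0) {a : F} (ha : a ≠ 0) {x : SL(2, F)} (h : Commute x (lo a)) :
    ∃ b, x = lo b := by
  have hd := SL_det x
  obtain ⟨h1, -, h3, -⟩ := mat_ext_iff.1 (SL_coe_congr h.eq)
  simp [SL_coe_mul, mul_apply2, ha] at h1 h3
  have h4 : x.1 0 0 = x.1 1 1 := mul_left_cancel₀ ha (by linear_combination -h3)
  have h5 : x.1 1 1 = 1 := eq_one_of_sq h2 (by rw [h1, h4] at hd; linear_combination hd)
  exact ⟨x.1 1 0, SL_ext (by apply mat_ext <;> simp [h1, h4, h5])⟩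

theorem coe_ulu (μ c : F) : (up μ * lo c * (up μ)⁻¹).1 = !![1 + μ * c, -(μ * μ * c); c, 1 - μ * c] := by
  rw [up_inv, SL_coe_mul, SL_coe_mul]
  apply mat_ext <;> simp <;> ring

theorem inv_cases (h2 : (2 : F) = 0) {x : SL(2, F)} (h : x * x = 1) :
    (∃ b, x = up b) ∨ ∃ μ c, c ≠ 0 ∧ x = up μ * lo c * (up μ)⁻¹ := by
  have hd := SL_det x
  have h1 : x.1 1 1 = x.1 0 0 := by
    have := (mat_ext_iff.1 (SL_coe_congr (inv_eq_of_mul_eq_one_right h))).1
    rw [SL_coe_inv] at this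
    simpa using this
  rw [h1] at hd
  by_cases hc : x.1 1 0 = 0
  · have h5 : x.1 0 0 = 1 := eq_one_of_sq h2 (by rw [hc] at hd; linear_combination hd)
    exact Or.inl ⟨x.1 0 1, SL_ext (by apply mat_ext <;> simp [h1, hc, h5])⟩
  · refine Or.inr ⟨(x.1 0 0 - 1) / x.1 1 0, x.1 1 0, hc, SL_ext ?_⟩
    rw [coe_ulu]
    apply mat_ext <;> simp
    · field_simp; ring
    · field_simp; linear_combination -hd + (x.1 0 0 ^ 2 - x.1 0 0) * h2
    · field_simp; linear_combination h1 + (x.1 0 0 - 1) * h2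

theorem nc_form (h2 : (2 : F) = 0) {x : SL(2, F)} (h : x * x = 1) {a : F}
    (hc : ¬ Commute (up a) x) : ∃ μ c, c ≠ 0 ∧ x = up μ * lo c * (up μ)⁻¹ :=
  (inv_cases h2 h).resolve_left fun ⟨b, e⟩ => hc (e ▸ up_comm a b)

theorem not_comm_up_lo {a c : F} (ha : a ≠ 0) (hc : c ≠ 0) : ¬ Commute (up a) (lo c) := fun h => by
  obtain ⟨h1, -, -, -⟩ := mat_ext_iff.1 (SL_coe_congr h.eq)
  simp [SL_coe_mul, ha, hc] at h1

theorem ulu_comm (h2 : (2 : F) = 0) {s c d : F} (hc : c ≠ 0) (hd : d ≠ 0)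
    (h : Commute (up s * lo c * (up s)⁻¹) (lo d)) : s = 0 := by
  obtain ⟨b, e⟩ := comm_lo h2 hd h
  have := (mat_ext_iff.1 (SL_coe_congr e)).1
  rw [coe_ulu] at this
  simpa [hc] using this

theorem lul_comm (h2 : (2 : F) = 0) {c : F} (h : Commute (lo c * up 1 * (lo c)⁻¹) (up 1)) :
    c = 0 := by
  obtain ⟨b, e⟩ := comm_up h2 one_ne_zero h
  have := (mat_ext_iff.1 (SL_coe_congr e)).1
  rw [lo_inv, SL_coe_mul, SL_coe_mul] at this
  simpa using this

theorem dg_mul_lo (a : Fˣ) (b : F) : dg a * lo b * (dg a)⁻¹ = lo (((a : F) ^ 2)⁻¹ * b) := by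
  rw [dg_inv]
  apply SL_ext
  apply mat_ext <;> simp
  ring

theorem exists_conj_up [Finite F] (h2 : (2 : F) = 0) {b : F} (hb : b ≠ 0) :
    ∃ l : Fˣ, (l : F) ^ 2 = b ∧ dg l * up 1 * (dg l)⁻¹ = up b := by
  obtain ⟨r, hr⟩ := isSquare_of_two_eq_zero h2 b
  have h0 : r ≠ 0 := fun e => hb (by rw [hr, e, mul_zero])
  exact ⟨Units.mk0 r h0, by simp [hr, pow_two], by rw [dg_mul_up]; simp [hr, pow_two]⟩

theorem exists_conj [Finite F] (h2 : (2 : F) = 0) {x : SL(2, F)} (h : x * x = 1) (h1 : x ≠ 1) :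
    ∃ y, y * up 1 * y⁻¹ = x := by
  rcases inv_cases h2 h with ⟨b, rfl⟩ | ⟨μ, c, hc, rfl⟩
  · obtain ⟨l, -, e⟩ := exists_conj_up h2 (mt up_eq_one.2 h1)
    exact ⟨_, e⟩
  · obtain ⟨l, -, e⟩ := exists_conj_up h2 (neg_ne_zero.2 hc)
    exact ⟨up μ * wt * dg l, by rw [lo_eq, ← e]; group⟩

theorem cube_of (h2 : (2 : F) = 0) {a b : F} (h : a * b = 1) : (up a * lo b) ^ 3 = 1 := by
  apply SL_ext
  rw [SL_coe_pow, SL_coe_mul, pow_three]
  apply mat_ext <;> simp
  · linear_combination (a * a * b * b + 6 * a * b + 12) * h + 6 * h2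
  · linear_combination (a * a * b + 5 * a) * h + 4 * a * h2
  · linear_combination (a * b * b + 5 * b) * h + 4 * b * h2
  · linear_combination (a * b + 4) * h + 2 * h2

theorem of_cube (h2 : (2 : F) = 0) {a b : F} (ha : a ≠ 0) (h : (up a * lo b) ^ 3 = 1) :
    a * b = 1 := by
  have := (mat_ext_iff.1 (SL_coe_congr h)).2.1
  rw [SL_coe_pow, SL_coe_mul, pow_three] at this
  simp at this
  apply eq_one_of_sq h2
  apply mul_left_cancel₀ ha
  linear_combination this - (2 * a * a * b + 2 * a) * h2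

theorem ulu_eq (h2 : (2 : F) = 0) (a : Fˣ) : up (a : F) * lo (a : F)⁻¹ * up (a : F) = dg a * wt := by
  apply SL_ext
  rw [SL_coe_mul, SL_coe_mul, SL_coe_mul]
  apply mat_ext <;> simp
  · linear_combination h2
  · field_simp; linear_combination h2
  · field_simp; linear_combination h2
  · linear_combination h2

/-- The entrywise action of a field automorphism. -/
def mp (φ : F ≃+* F) : SL(2, F) →* SL(2, F) := Matrix.SpecialLinearGroup.map (φ : F →+* F)

theorem mp_up (φ : F ≃+* F) (a : F) : mp φ (up a) = up (φ a) :=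
  SL_ext (by apply mat_ext <;> simp [mp])

theorem mp_lo (φ : F ≃+* F) (a : F) : mp φ (lo a) = lo (φ a) :=
  SL_ext (by apply mat_ext <;> simp [mp])

theorem hom_ext {H : Type*} [Group H] {ψ χ : SL(2, F) →* H} (h1 : ∀ a, ψ (up a) = χ (up a))
    (h2 : ∀ a, ψ (lo a) = χ (lo a)) (x : SL(2, F)) : ψ x = χ x :=
  SL_induction (fun x => ψ x = χ x) h1 h2 (fun A B hA hB => by rw [map_mul, map_mul, hA, hB]) x

theorem mp_of_fix {φ : F ≃+* F} (h : ∀ a, φ a = a) (x : SL(2, F)) : mp φ x = x :=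
  hom_ext (χ := MonoidHom.id _) (fun a => by rw [mp_up, h]; rfl) (fun a => by rw [mp_lo, h]; rfl) x

theorem aut_core [Finite F] (h2 : (2 : F) = 0) (ψ : SL(2, F) →* SL(2, F))
    (hi : Function.Injective ψ) (hu : ψ (up 1) = up 1) {c : F} (hl : ψ (lo 1) = lo c) :
    ∃ φ : F ≃+* F, ∀ x, ψ x = mp φ x := by
  have hc : c = 1 := by
    have := of_cube h2 (a := 1) (b := c) one_ne_zero (by
      rw [← hu, ← hl, ← map_mul, ← map_pow, cube_of h2 (mul_one 1), map_one])
    rwa [one_mul] at this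
  subst hc
  have hw : ψ wt = wt := by
    have := ulu_eq h2 (1 : Fˣ)
    simp only [Units.val_one, inv_one, dg_one, one_mul] at this
    rw [← this, map_mul, map_mul, hu, hl]
  have e1 : ∀ a, ∃ b, ψ (up a) = up b := fun a =>
    comm_up h2 one_ne_zero (hu ▸ (up_comm a 1).map ψ)
  choose β hβ using e1
  have hβ0 : ∀ a, a ≠ 0 → β a ≠ 0 := fun a ha e => ha (up_eq_one.1 (hi (by
    rw [hβ, e, up_zero, map_one])))
  have hγ : ∀ a, ψ (lo a) = lo (β a) := fun a => by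
    rw [lo_eq, lo_eq, neg_eq h2, neg_eq h2, map_mul, map_mul, map_inv, hw, hβ]
  have hinv : ∀ a, a ≠ 0 → β a⁻¹ = (β a)⁻¹ := fun a ha =>
    eq_inv_of_mul_eq_one_right (of_cube h2 (hβ0 a ha) (by
      rw [← hβ, ← hγ, ← map_mul, ← map_pow, cube_of h2 (mul_inv_cancel₀ ha), map_one]))
  have hdg : ∀ a : Fˣ, ψ (dg a) = dg (Units.mk0 (β a) (hβ0 a a.ne_zero)) := fun a => by
    have h1 := congrArg ψ (ulu_eq h2 a)
    have h3 := ulu_eq h2 (Units.mk0 (β a) (hβ0 a a.ne_zero))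
    rw [map_mul, map_mul, map_mul, hw, hβ, hγ, hinv _ a.ne_zero] at h1
    rw [Units.val_mk0, h1] at h3
    exact mul_right_cancel h3
  have hadd : ∀ a b, β (a + b) = β a + β b := fun a b =>
    up_injective (by rw [← hβ, ← up_mul, ← up_mul, map_mul, hβ, hβ])
  have hzero : β 0 = 0 := up_eq_one.1 (by rw [← hβ, up_zero, map_one])
  have hmul : ∀ a b, β (a * b) = β a * β b := fun a b => by
    by_cases ha : a = 0
    · rw [ha, zero_mul, hzero, zero_mul]
    by_cases hb : b = 0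
    · rw [hb, mul_zero, hzero, mul_zero]
    have := congrArg ψ (dg_mul (Units.mk0 a ha) (Units.mk0 b hb))
    rw [map_mul, hdg, hdg, hdg, dg_mul] at this
    simpa using (congrArg Units.val (dg_injective this)).symm
  let φ : F →+* F :=
    { toFun := β, map_one' := up_injective (by rw [← hβ, hu]), map_mul' := hmul,
      map_zero' := hzero, map_add' := hadd }
  refine ⟨RingEquiv.ofBijective φ (Finite.injective_iff_bijective.1 φ.injective), hom_ext
    (fun a => ?_) fun a => ?_⟩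
  · rw [mp_up, hβ]; rfl
  · rw [mp_lo, hγ]; rfl

theorem aut_struct [Finite F] (h2 : (2 : F) = 0) (ψ : SL(2, F) →* SL(2, F))
    (hi : Function.Injective ψ) (hu : Commute (ψ (up 1)) (up 1)) :
    ∃ (μ : F) (l : Fˣ) (φ : F ≃+* F), ∀ x, ψ x = up μ * dg l * mp φ x * (up μ * dg l)⁻¹ := by
  obtain ⟨a, ha⟩ := comm_up h2 one_ne_zero hu
  have ha0 : a ≠ 0 := fun e => one_ne_zero (up_eq_one.1 (hi (by rw [ha, e, up_zero, map_one])))
  obtain ⟨μ, c, -, hl⟩ := nc_form h2 (x := ψ (lo 1)) (a := a)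
    (by rw [← map_mul, lo_lo h2, map_one])
    (fun e => not_comm_up_lo one_ne_zero one_ne_zero ((ha ▸ e).of_map hi))
  obtain ⟨l, -, e⟩ := exists_conj_up h2 ha0
  obtain ⟨φ, hφ⟩ := aut_core h2 ((MulAut.conj (up μ * dg l)⁻¹).toMonoidHom.comp ψ)
    ((MulAut.conj _).injective.comp hi) (c := (((l⁻¹ : Fˣ) : F) ^ 2)⁻¹ * c) (by
      change (up μ * dg l)⁻¹ * ψ (up 1) * (up μ * dg l)⁻¹⁻¹ = _
      rw [ha, ← conj_eq_of_commute (up_comm μ a), ← e]; group) (by
      change (up μ * dg l)⁻¹ * ψ (lo 1) * (up μ * dg l)⁻¹⁻¹ = _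
      rw [hl, ← dg_mul_lo, ← dg_inv]; group)
  refine ⟨μ, l, φ, fun x => ?_⟩
  rw [← hφ]
  change _ = _ * ((up μ * dg l)⁻¹ * ψ x * (up μ * dg l)⁻¹⁻¹) * _
  group

end Cfsg.Agent.BdL
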